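import Mathlib
import Cfsg.Prelude.Def_GeometricClasses
import Cfsg.Agent.H884.ExtB5
import Cfsg.Agent.H887.OmegaBridge
import Cfsg.Agent.H925.OrthNot
import Cfsg.Agent.H923.Ext

/-!
# The normaliser of a self-adjoint extension field is maximal in `Ω` (helper884)

Matrix version of `H884.Ext.overgroup`.
-/

set_option autoImplicit false
set_option linter.unusedSectionVars false
set_option linter.style.haveILetI false

namespace Cfsg.Agent.H884.Ext

open QuadraticMap Cfsg.Agent.LieClassical.OrthCore Cfsg.Agent.LieClassical.OrthTrans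
  Cfsg.Agent.LieClassical.OrthSimple Cfsg.Agent.LieClassical.OrthFinite Module

section Form

variable {F K V : Type*} [Field F] [Field K] [Algebra F K] [AddCommGroup V] [Module F V] [Module K V]
  [IsScalarTower F K V]

/-- A form with self-adjoint scalars is the trace of a form over `K`. -/
theorem exists_TF [Finite K] {Q : QuadraticForm F V} (h2 : (2 : F) ≠ 0) (hnd : Nondeg Q)
    (hsa : ∀ (k : K) (u v : V), polar Q (k • u) v = polar Q u (k • v)) :
    ∃ QK : QuadraticForm K V, TF Q QK := by
  have h2K : (2 : K) ≠ 0 := by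
    intro h
    apply h2
    apply (algebraMap F K).injective
    rw [map_ofNat, map_zero, h]
  have hlin : ∀ u v : V, ∃ φ : K →ₗ[F] F, ∀ k, φ k = polar Q (k • u) v := by
    intro u v
    refine ⟨(polarBilin Q).flip v ∘ₗ (LinearMap.toSpanSingleton K V u).restrictScalars F,
      fun k => rfl⟩
  have hex : ∀ u v : V, ∃ e : K, ∀ k, polar Q (k • u) v = Algebra.trace F K (e * k) := by
    intro u v
    obtain ⟨φ, hφ⟩ := hlin u v
    obtain ⟨e, he⟩ := exists_trace φ
    exact ⟨e, fun k => by rw [← hφ, he]⟩
  choose f hf using hex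
  have hext : ∀ {a b : K}, (∀ k, Algebra.trace F K (a * k) = Algebra.trace F K (b * k)) → a = b := by
    intro a b hab
    apply trace_ext' (F := F)
    intro c
    rw [mul_comm c a, mul_comm c b, hab]
  have hadd : ∀ u u' v, f (u + u') v = f u v + f u' v := by
    intro u u' v
    apply hext
    intro k
    rw [← hf, smul_add, polar_add_left, hf, hf, add_mul, map_add]
  have hsmul : ∀ (c : K) u v, f (c • u) v = c * f u v := by
    intro c u v
    apply hext
    intro k
    rw [← hf, smul_smul, hf]
    ring_nf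
  have hsymm : ∀ u v, f u v = f v u := by
    intro u v
    apply hext
    intro k
    rw [← hf, ← hf, hsa, polar_comm]
  let B : V →ₗ[K] V →ₗ[K] K := LinearMap.mk₂ K f hadd (fun c u v => by rw [hsmul, smul_eq_mul])
    (fun u v v' => by rw [hsymm, hadd, hsymm v, hsymm v'])
    (fun c u v => by rw [hsymm, hsmul, hsymm v, smul_eq_mul])
  have hB : ∀ u v, B u v = f u v := fun u v => rfl
  let QK : QuadraticForm K V := (2 : K)⁻¹ • LinearMap.BilinMap.toQuadraticMap B
  have hQK : ∀ v, QK v = (2 : K)⁻¹ * f v v := fun v => rfl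
  have hpolar : ∀ u v, polar QK u v = f u v := by
    intro u v
    rw [polar, hQK, hQK, hQK, hadd, hsymm u (u + v), hsymm v (u + v), hadd, hadd, hsymm v u]
    field_simp
    ring
  refine ⟨QK, h2K, fun v => ?_, fun x hx => ?_⟩
  · have h3 : polar Q v v = Algebra.trace F K (f v v) := by
      have := hf v v 1
      rwa [one_smul, mul_one] at this
    have h4 : (2 : F) * Q v = 2 * Algebra.trace F K (QK v) := by
      rw [polar_self'] at h3
      rw [h3, hQK]
      have e : (f v v) = (2 : F) • ((2 : K)⁻¹ * f v v) := by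
        rw [Algebra.smul_def, map_ofNat, ← mul_assoc, mul_inv_cancel₀ h2K, one_mul]
      conv_lhs => rw [e]
      rw [map_smul, smul_eq_mul]
    exact mul_left_cancel₀ h2 h4
  · apply hnd
    intro y
    have h3 := hx y
    rw [hpolar] at h3
    have := hf x y 1
    rwa [h3, one_smul, zero_mul, map_zero] at this

end Form

open Cfsg.Geo Cfsg.Agent.H887.OmegaBridge Cfsg.Agent.H923
open scoped MatrixGroups Matrix

variable {ι : Type} [Fintype ι] [DecidableEq ι] {F : Type*} [Field F]

theorem mem_subalgebraNormalizer_iff_NK [Nonempty ι] {r : ℕ} {K : Subalgebra F (Matrix ι ι F)}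
    (hK : IsFieldSubalgebra r K) (g : GL ι F) :
    letI := fieldOf hK
    g ∈ subalgebraNormalizer K ↔ le ι F g ∈ (NK F K (ι → F) : Set ((ι → F) ≃ₗ[F] (ι → F))) := by
  letI := fieldOf hK
  have hsm : ∀ (k : K) (x : ι → F), k • x = (k : Matrix ι ι F) *ᵥ x := fun k x => rfl
  have hinv1 : ((g⁻¹ : GL ι F) : Matrix ι ι F) * (g : Matrix ι ι F) = 1 := by
    rw [← Units.val_mul, inv_mul_cancel, Units.val_one]
  have hinv2 : (g : Matrix ι ι F) * ((g⁻¹ : GL ι F) : Matrix ι ι F) = 1 := by
    rw [← Units.val_mul, mul_inv_cancel, Units.val_one]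
  have hcan : ∀ M : Matrix ι ι F, ((g⁻¹ : GL ι F) : Matrix ι ι F) *
      ((g : Matrix ι ι F) * M * ((g⁻¹ : GL ι F) : Matrix ι ι F)) * (g : Matrix ι ι F) = M := by
    intro M
    rw [mul_assoc (g : Matrix ι ι F), ← mul_assoc, hinv1, one_mul, mul_assoc, hinv1, mul_one]
  constructor
  · intro hg
    refine ⟨{ toFun := fun k => ⟨(g : Matrix ι ι F) * k * ((g⁻¹ : GL ι F) : Matrix ι ι F),
                (hg k).1 k.2⟩
              invFun := fun k => ⟨((g⁻¹ : GL ι F) : Matrix ι ι F) * k * (g : Matrix ι ι F),
                ((hg _).2 (by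
                  rw [← mul_assoc, ← mul_assoc, hinv2, one_mul, mul_assoc, hinv2, mul_one]
                  exact k.2))⟩
              left_inv := fun k => Subtype.ext (hcan k)
              right_inv := fun k => Subtype.ext (by
                change (g : Matrix ι ι F) * (((g⁻¹ : GL ι F) : Matrix ι ι F) * k *
                  (g : Matrix ι ι F)) * ((g⁻¹ : GL ι F) : Matrix ι ι F) = k
                rw [← mul_assoc, ← mul_assoc, hinv2, one_mul, mul_assoc, hinv2, mul_one])
              map_mul' := fun k l => Subtype.ext (by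
                change (g : Matrix ι ι F) * ((k : Matrix ι ι F) * l) *
                  ((g⁻¹ : GL ι F) : Matrix ι ι F) =
                  ((g : Matrix ι ι F) * k * ((g⁻¹ : GL ι F) : Matrix ι ι F)) *
                  ((g : Matrix ι ι F) * l * ((g⁻¹ : GL ι F) : Matrix ι ι F))
                have e : ∀ A B : Matrix ι ι F, (g : Matrix ι ι F) * A *
                    ((g⁻¹ : GL ι F) : Matrix ι ι F) * ((g : Matrix ι ι F) * B *
                    ((g⁻¹ : GL ι F) : Matrix ι ι F)) = (g : Matrix ι ι F) * A *
                    (((g⁻¹ : GL ι F) : Matrix ι ι F) * (g : Matrix ι ι F)) * B *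
                    ((g⁻¹ : GL ι F) : Matrix ι ι F) := by
                  intro A B
                  simp only [mul_assoc]
                rw [e, hinv1, mul_one, mul_assoc (g : Matrix ι ι F) (k : Matrix ι ι F)])
              map_add' := fun k l => Subtype.ext (by
                change (g : Matrix ι ι F) * ((k : Matrix ι ι F) + l) *
                  ((g⁻¹ : GL ι F) : Matrix ι ι F) = _
                rw [mul_add, add_mul]
                rfl) }, fun c v => ?_⟩
    change (g : Matrix ι ι F) *ᵥ ((c : Matrix ι ι F) *ᵥ v) =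
      ((g : Matrix ι ι F) * (c : Matrix ι ι F) * ((g⁻¹ : GL ι F) : Matrix ι ι F)) *ᵥ
        ((g : Matrix ι ι F) *ᵥ v)
    rw [Matrix.mulVec_mulVec, Matrix.mulVec_mulVec,
      mul_assoc ((g : Matrix ι ι F) * (c : Matrix ι ι F)), hinv1, mul_one]
  · rintro ⟨σ, hσ⟩
    have h1 : ∀ k : K, (g : Matrix ι ι F) * (k : Matrix ι ι F) =
        (σ k : Matrix ι ι F) * (g : Matrix ι ι F) := by
      intro k
      apply Matrix.mulVec_injective
      funext x
      rw [← Matrix.mulVec_mulVec, ← Matrix.mulVec_mulVec]
      exact hσ k x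
    have h2 : ∀ k : K, (g : Matrix ι ι F) * (k : Matrix ι ι F) *
        ((g⁻¹ : GL ι F) : Matrix ι ι F) = (σ k : Matrix ι ι F) := by
      intro k
      rw [h1, mul_assoc, hinv2, mul_one]
    intro k
    constructor
    · intro hk
      rw [h2 ⟨k, hk⟩]
      exact (σ ⟨k, hk⟩).2
    · intro hk
      have h3 := h2 (σ.symm ⟨_, hk⟩)
      rw [RingEquiv.apply_symm_apply] at h3
      have h4 := congrArg (fun M => ((g⁻¹ : GL ι F) : Matrix ι ι F) * M * (g : Matrix ι ι F)) h3
      simp only [hcan] at h4
      rw [← h4]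
      exact (σ.symm ⟨_, hk⟩).2

/-- **The normaliser of a self-adjoint extension field of prime degree is maximal in `Ω`** (odd
characteristic, dimension at least four over the extension field, at least five if the degree is
two). -/
theorem extension_field_normalizer_isMaximalIn [Finite F] (h2 : (2 : F) ≠ 0)
    {Q : (ι → F) → F} (hQ : IsNondegenerateQuadraticForm Q) {r : ℕ} (hr : r.Prime)
    {K : Subalgebra F (Matrix ι ι F)} (hK : IsFieldSubalgebra r K)
    (hsa : IsSelfAdjointFor (polar Q) K) (hn : 4 * r ≤ Fintype.card ι)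
    (hn2 : r = 2 → 10 ≤ Fintype.card ι) :
    IsMaximalIn (omegaGL Q) (subalgebraNormalizer K ⊓ omegaGL Q) := by
  have hr2 := hr.two_le
  have : Nonempty ι := Fintype.card_pos_iff.1 (by omega)
  letI := fieldOf hK
  have hfr : finrank F K = r := hK.finrank_eq
  have h1 := finrank_mul hK
  have hm : 4 ≤ finrank K (ι → F) := by
    by_contra hlt'
    have h3 : finrank K (ι → F) ≤ 3 := by omega
    have : r * finrank K (ι → F) ≤ r * 3 := Nat.mul_le_mul_left _ h3
    omega
  have hKfin : Finite K := Module.finite_of_finite F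
  have hKV : FiniteDimensional K (ι → F) := FiniteDimensional.of_finrank_pos (by omega)
  have hdim : finrank F (ι → F) = Fintype.card ι := Module.finrank_fintype_fun_eq_card F
  have hG : Good (qf Q hQ) := good_of_finite (nondeg_qf Q hQ) (by omega)
  obtain ⟨QK, hTF⟩ := exists_TF (K := K) (Q := qf Q hQ) h2 (nondeg_qf Q hQ)
    (fun k u v => hsa k k.2 u v)
  refine isMaximalIn_omegaGL Q hQ hG (subalgebraNormalizer K)
    (NK F K (ι → F) : Set ((ι → F) ≃ₗ[F] (ι → F))) (mem_subalgebraNormalizer_iff_NK hK) ?_ ?_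
  · by_contra hcon
    push Not at hcon
    apply Cfsg.Agent.H925.omegaGL_not_le_subalgebraNormalizer hQ (by omega) hr2 hK
    intro g hg
    rw [mem_subalgebraNormalizer_iff_NK hK]
    exact hcon _ ((mem_omegaGL_iff Q hQ hG g).1 hg)
  · intro H hHE hSH hex
    have hOver : Over (qf Q hQ) K H := ⟨hHE, hSH⟩
    rcases overgroup hTF hG hOver hm (by rw [hfr]; exact hr) (fun h3 => wi_of_finrank (by
      rw [hfr] at h3
      have := hn2 h3
      rw [h3] at h1
      omega)) with h | h
    · obtain ⟨g, hg, hgn⟩ := hex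
      exact absurd (h hg) hgn
    · exact h

end Cfsg.Agent.H884.Ext
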