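import Cfsg.Agent.H872.SingBasic
import Cfsg.Agent.H304.PslRes

/-!
# The order of the normaliser of a Singer cycle (helper884, for S3561)

`card_singer_le` : `M ≤ PSL_n(q)` normalising a field subalgebra of degree `n`: `|M| (q - 1) ≤ n (q ^ n - 1)`.
-/

set_option autoImplicit false

namespace Cfsg.Agent.H884.Row

open Matrix Cfsg Cfsg.Geo Cfsg.Agent.H872.Sing

universe u

section Norm

variable {ι : Type} [Fintype ι] [DecidableEq ι] [Nonempty ι] {F : Type u} [Field F] {E : Type u} [Field E] [Algebra F E]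
  (σ : E →ₐ[F] Matrix ι ι F)

theorem exists_aut {g : GL ι F} (hg : g ∈ subalgebraNormalizer σ.range) :
    ∃ φ : E →ₐ[F] E, ∀ k, (g : Matrix ι ι F) * σ k = σ (φ k) * g := by
  have hinj : Function.Injective σ := σ.toRingHom.injective
  have h1 : ∀ k, ∃ k', (g : Matrix ι ι F) * σ k = σ k' * g := by
    intro k
    obtain ⟨k', hk'⟩ := (hg (σ k)).1 ⟨k, rfl⟩
    refine ⟨k', ?_⟩
    have h2 : σ k' = (g : Matrix ι ι F) * σ k * ((g⁻¹ : GL ι F) : Matrix ι ι F) := hk'
    rw [h2, mul_assoc, ← Units.val_mul, inv_mul_cancel, Units.val_one, mul_one]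
  choose f hf using h1
  have hcan : ∀ a b : E, σ a * (g : Matrix ι ι F) = σ b * g → a = b := by
    intro a b h
    apply hinj
    have h2 := congrArg (fun m => m * ((g⁻¹ : GL ι F) : Matrix ι ι F)) h
    rwa [mul_assoc, mul_assoc, ← Units.val_mul, mul_inv_cancel, Units.val_one, mul_one, mul_one] at h2
  refine ⟨{ toFun := f, map_one' := ?_, map_mul' := ?_, map_zero' := ?_, map_add' := ?_, commutes' := ?_ }, hf⟩
  · apply hcan
    rw [← hf, map_one, mul_one, one_mul]
  · intro a b
    apply hcan
    rw [← hf, map_mul, map_mul, ← mul_assoc, hf a, mul_assoc, hf b, mul_assoc]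
  · apply hcan
    rw [← hf, map_zero, mul_zero, zero_mul]
  · intro a b
    apply hcan
    rw [← hf, map_add, map_add, mul_add, hf a, hf b, add_mul]
  · intro c
    apply hcan
    rw [← hf, AlgHom.commutes, Algebra.algebraMap_eq_smul_one, mul_smul_comm, smul_mul_assoc, one_mul, mul_one]

/-- the order of the normaliser of a maximal subfield of the matrix algebra -/
theorem card_norm_le [Finite F] [FiniteDimensional F E] (hE : Module.finrank F E = Fintype.card ι) :
    Nat.card (subalgebraNormalizer σ.range) ≤ Fintype.card ι * (Nat.card F ^ Fintype.card ι - 1) := by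
  obtain ⟨v, hv⟩ := exists_ne_zero (ι := ι) (F := F)
  have h1 : ∀ g : subalgebraNormalizer σ.range, ∃ φ : E →ₐ[F] E, ∀ k,
      ((g : GL ι F) : Matrix ι ι F) * σ k = σ (φ k) * ((g : GL ι F) : Matrix ι ι F) := fun g => exists_aut σ g.2
  choose φ hφ using h1
  have h2 : ∀ g : GL ι F, (g : Matrix ι ι F) *ᵥ v ≠ 0 := by
    intro g h
    apply hv
    have h3 := congrArg (fun w => ((g⁻¹ : GL ι F) : Matrix ι ι F) *ᵥ w) h
    simp only [mulVec_mulVec, mulVec_zero] at h3
    rwa [← Units.val_mul, inv_mul_cancel, Units.val_one, one_mulVec] at h3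
  let Φ : subalgebraNormalizer σ.range → (E →ₐ[F] E) × {w : ι → F // w ≠ 0} := fun g =>
    (φ g, ⟨((g : GL ι F) : Matrix ι ι F) *ᵥ v, h2 g⟩)
  have hΦ : Function.Injective Φ := by
    intro g h hgh
    have h3 : φ g = φ h := congrArg Prod.fst hgh
    have h4 : ((g : GL ι F) : Matrix ι ι F) *ᵥ v = ((h : GL ι F) : Matrix ι ι F) *ᵥ v :=
      congrArg Subtype.val (congrArg Prod.snd hgh)
    apply Subtype.ext
    apply Units.ext
    apply Matrix.mulVec_injective
    funext w
    obtain ⟨e, rfl⟩ := exists_ev σ hE hv w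
    rw [mulVec_mulVec, mulVec_mulVec, hφ, hφ, ← mulVec_mulVec, ← mulVec_mulVec, h3, h4]
  have := Fintype.ofFinite F
  have hfin : Finite (E →ₐ[F] E) := inferInstance
  refine (Nat.card_le_card_of_injective Φ hΦ).trans ?_
  rw [Nat.card_prod]
  refine Nat.mul_le_mul ((card_algHom_le_finrank F E E).trans_eq hE) ?_
  classical
  have h5 : Nat.card {w : ι → F // w ≠ 0} = Nat.card F ^ Fintype.card ι - 1 := by
    rw [Nat.card_eq_fintype_card, Nat.card_eq_fintype_card (α := F)]
    have := Set.card_ne_eq (0 : ι → F)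
    rw [Fintype.card_fun] at this
    exact this
  exact h5.le

end Norm

section Psl

variable {F : Type u} [Field F] [Finite F] {n : ℕ}

/-- a field subalgebra as an abstract field (the same as `H872.Sing.exists_sigma`) -/
theorem exists_sigma' {ι : Type} [Fintype ι] [DecidableEq ι] [Nonempty ι] {F : Type u} [Field F] {r : ℕ}
    {K : Subalgebra F (Matrix ι ι F)} (hK : IsFieldSubalgebra r K) :
    ∃ (E : Type u) (_ : Field E) (_ : Algebra F E) (σ : E →ₐ[F] Matrix ι ι F), σ.range = K ∧
      Module.finrank F E = r := by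
  have hf : IsField K :=
    { exists_pair_ne := ⟨0, 1, zero_ne_one⟩
      mul_comm := fun a b => Subtype.ext (hK.comm a a.2 b b.2)
      mul_inv_cancel := by
        intro a ha
        obtain ⟨y, hy, hxy⟩ := hK.inv a a.2 (fun h => ha (Subtype.ext h))
        exact ⟨⟨y, hy⟩, Subtype.ext hxy⟩ }
  let _ : Field K := hf.toField
  exact ⟨K, inferInstance, inferInstance, K.val, K.range_val, hK.finrank_eq⟩

/-- **The normaliser of a Singer cycle.** -/
theorem card_singer_le (hn : 0 < n) {M : Subgroup (ProjectiveSpecialLinearGroup (Fin n) F)}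
    {K : Subalgebra F (Matrix (Fin n) (Fin n) F)} (hK : IsFieldSubalgebra n K)
    (hM : H304.PslT.pre M ≤ subalgebraNormalizer K) :
    Nat.card M * (Nat.card F - 1) ≤ n * (Nat.card F ^ n - 1) := by
  have : Nonempty (Fin n) := ⟨⟨0, hn⟩⟩
  obtain ⟨E, _, _, σ, rfl, hE⟩ := exists_sigma' hK
  have hfd : FiniteDimensional F E := Module.finite_of_finrank_pos (by omega)
  have h1 := card_norm_le σ (hE.trans (Fintype.card_fin n).symm)
  rw [Fintype.card_fin] at h1
  refine le_trans ?_ h1
  obtain ⟨e⟩ := H304.PslT.exists_pre_equiv hn M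
  set N := subalgebraNormalizer σ.range with hN
  have hsc : scalars (Fin n) F ≤ N := by
    intro z hz
    obtain ⟨c, hc⟩ := (mem_scalars_iff z).1 hz
    intro k
    have h3 : (z : Matrix (Fin n) (Fin n) F) * k * ((z⁻¹ : GL (Fin n) F) : Matrix (Fin n) (Fin n) F) = k := by
      have h4 : (z : Matrix (Fin n) (Fin n) F) * k = k * (z : Matrix (Fin n) (Fin n) F) := by
        rw [hc, smul_mul_assoc, one_mul, mul_smul_comm, mul_one]
      rw [h4, mul_assoc, ← Units.val_mul, mul_inv_cancel, Units.val_one, mul_one]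
    rw [h3]
  have hcs : Nat.card (scalars (Fin n) F) = Nat.card F - 1 := by
    have hinj : Function.Injective (Units.map (Matrix.scalar (Fin n) : F →+* Matrix (Fin n) (Fin n) F).toMonoidHom) :=
      Units.map_injective fun a b h => Matrix.scalar_inj.1 h
    rw [← Nat.card_units]
    exact (Nat.card_congr (MonoidHom.ofInjective hinj).toEquiv).symm
  have hle : Nat.card M ≤ ((scalars (Fin n) F).subgroupOf N).index := by
    rw [← Nat.card_congr e.toEquiv]
    exact Subgroup.relIndex_le_of_le_right hM Subgroup.index_ne_zero_of_finite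
  have h5 := ((scalars (Fin n) F).subgroupOf N).card_mul_index
  have h6 : Nat.card ((scalars (Fin n) F).subgroupOf N) = Nat.card F - 1 := by
    rw [← hcs]
    exact Nat.card_congr (Subgroup.subgroupOfEquivOfLe hsc).toEquiv
  rw [h6] at h5
  rw [← h5, mul_comm]
  exact Nat.mul_le_mul_left _ hle

end Psl

end Cfsg.Agent.H884.Row
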